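import Cfsg.Agent.Lib.Helper38.Pmin3.Defs

/-!
# S2930 "Pmin3", package (B3) (helper27)
-/

set_option autoImplicit false

namespace Cfsg.Agent.Lib.Helper27.Pmin3

open Cfsg.Agent.Lib.Helper38.Pmin3 Equiv

theorem lemB3 : LemB3 := by
  intro hB3a n S hS hmove
  classical
  choose Z hZS hZne hZ3 hZc using fun p : Fin n => hB3a n S hS p (hmove p)
  let r : Setoid (Fin n) := MulAction.orbitRel S (Fin n)
  obtain ⟨rep, hrepdef⟩ : ∃ rep : Fin n → Fin n, ∀ x, rep x = (Quotient.mk r x).out :=
    ⟨_, fun x => rfl⟩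
  have hrep : ∀ x, SameOrb S (rep x) x := by
    intro x
    have h1 : r (rep x) x := by rw [hrepdef]; exact Quotient.mk_out (s := r) x
    obtain ⟨g, hg⟩ := h1
    have hg' : ((g : alternatingGroup (Fin n)) : Perm (Fin n)) x = rep x := hg
    refine ⟨((g⁻¹ : S) : alternatingGroup (Fin n)), (g⁻¹ : S).2, ?_⟩
    rw [← hg']
    simp
  have hrepc : ∀ g ∈ S, ∀ x : Fin n,
      rep (((g : alternatingGroup (Fin n)) : Perm (Fin n)) x) = rep x := by
    intro g hg x
    rw [hrepdef, hrepdef]
    apply congrArg Quotient.out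
    apply Quotient.sound
    exact ⟨⟨g, hg⟩, rfl⟩
  obtain ⟨T, hT⟩ : ∃ T : Fin n → Fin n,
      ∀ x, T x = ((Z (rep x) : alternatingGroup (Fin n)) : Perm (Fin n)) x := ⟨_, fun x => rfl⟩
  have hrepT : ∀ x, rep (T x) = rep x := by
    intro x; rw [hT]; exact hrepc _ (hZS _) x
  have hTeq : ∀ g ∈ S, ∀ x : Fin n,
      T (((g : alternatingGroup (Fin n)) : Perm (Fin n)) x) =
        ((g : alternatingGroup (Fin n)) : Perm (Fin n)) (T x) := by
    intro g hg x
    rw [hT, hT, hrepc g hg x]
    exact (hZc (rep x) g hg x (hrep x)).symm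
  have hTne : ∀ x, T x ≠ x := by
    intro x hx
    obtain ⟨g, hg, hgx⟩ := hrep x
    have h1 : T (rep x) ≠ rep x := by
      rw [hT]
      have h2 : rep (rep x) = rep x := by
        have h5 := hrepc g hg (rep x)
        rw [hgx] at h5
        exact h5.symm
      rw [h2]; exact hZne (rep x)
    apply h1
    have h3 := hTeq g hg (rep x)
    rw [hgx, hx] at h3
    have h4 : ((g : alternatingGroup (Fin n)) : Perm (Fin n)) (rep x) =
        ((g : alternatingGroup (Fin n)) : Perm (Fin n)) (T (rep x)) := by rw [hgx]; exact h3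
    exact ((g : Perm (Fin n)).injective h4).symm
  have hT3 : ∀ x, T (T (T x)) = x := by
    intro x
    have e1 : T (T (T x)) = ((Z (rep x) : alternatingGroup (Fin n)) : Perm (Fin n))
        (((Z (rep x) : alternatingGroup (Fin n)) : Perm (Fin n))
          (((Z (rep x) : alternatingGroup (Fin n)) : Perm (Fin n)) x)) := by
      rw [hT (T (T x)), hrepT, hrepT, hT (T x), hrepT, hT x]
    rw [e1]
    exact hZ3 (rep x) x (hrep x)
  have hT2ne : ∀ x, T (T x) ≠ x := by
    intro x hx
    have := hT3 x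
    rw [hx] at this
    exact hTne x this
  refine ⟨fun x y => y = x ∨ y = T x ∨ y = T (T x), ⟨?_, ?_, ?_⟩, ?_, ?_⟩
  · intro x; exact Or.inl rfl
  · intro x y h
    rcases h with rfl | rfl | rfl
    · exact Or.inl rfl
    · exact Or.inr (Or.inr (hT3 x).symm)
    · exact Or.inr (Or.inl (hT3 x).symm)
  · intro x y w h1 h2
    rcases h1 with rfl | rfl | rfl
    · exact h2
    · rcases h2 with rfl | rfl | rfl
      · exact Or.inr (Or.inl rfl)
      · exact Or.inr (Or.inr rfl)
      · exact Or.inl (hT3 x)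
    · rcases h2 with rfl | rfl | rfl
      · exact Or.inr (Or.inr rfl)
      · exact Or.inl (hT3 x)
      · rw [hT3 x]; exact Or.inr (Or.inl rfl)
  · intro g hg x y
    show (((g : alternatingGroup (Fin n)) : Perm (Fin n)) y =
        ((g : alternatingGroup (Fin n)) : Perm (Fin n)) x ∨
      ((g : alternatingGroup (Fin n)) : Perm (Fin n)) y =
        T (((g : alternatingGroup (Fin n)) : Perm (Fin n)) x) ∨
      ((g : alternatingGroup (Fin n)) : Perm (Fin n)) y =
        T (T (((g : alternatingGroup (Fin n)) : Perm (Fin n)) x))) ↔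
      (y = x ∨ y = T x ∨ y = T (T x))
    rw [hTeq g hg x, hTeq g hg (T x), (g : Perm (Fin n)).injective.eq_iff,
      (g : Perm (Fin n)).injective.eq_iff, (g : Perm (Fin n)).injective.eq_iff]
  · intro x
    rw [Set.ncard_eq_three]
    refine ⟨x, T x, T (T x), (hTne x).symm, (hT2ne x).symm, (hTne (T x)).symm, ?_⟩
    ext y
    simp only [Set.mem_ofPred_eq, Set.mem_insert_iff, Set.mem_singleton_iff]

end Cfsg.Agent.Lib.Helper27.Pmin3
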