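import Cfsg.Agent.Lib.Helper38.Pmin3.Defs

/-!
# S2930 "Pmin3", package (B3a) (helper27)
-/

set_option autoImplicit false

namespace Cfsg.Agent.Lib.Helper27.Pmin3

open Cfsg.Agent.Lib.Helper38.Pmin3 Equiv

theorem lemB3a : LemB3a := by
  intro n S hS x hx
  classical
  have : Fact (Nat.Prime 3) := ⟨Nat.prime_three⟩
  obtain ⟨g₀, hg₀, hg₀x⟩ := hx
  let O := MulAction.orbit S x
  let φ : S →* Perm O := MulAction.toPermHom S O
  have hφ : ∀ (g : S) (w : O),
      ((φ g w : O) : Fin n) = ((g : alternatingGroup (Fin n)) : Perm (Fin n)) (w : Fin n) :=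
    fun g w => rfl
  have hxO : x ∈ O := MulAction.mem_orbit_self x
  have hmemO : ∀ w : Fin n, SameOrb S x w → w ∈ O := by
    rintro w ⟨g, hg, hgw⟩
    exact ⟨⟨g, hg⟩, hgw⟩
  have hP : IsPGroup 3 φ.range := hS.of_surjective φ.rangeRestrict φ.rangeRestrict_surjective
  have hnt : Nontrivial φ.range := by
    refine ⟨⟨⟨φ ⟨g₀, hg₀⟩, ⟨_, rfl⟩⟩, 1, ?_⟩⟩
    intro h
    have h1 : φ ⟨g₀, hg₀⟩ = 1 := congrArg Subtype.val h
    have h2 := congrArg (fun p : Perm O => ((p ⟨x, hxO⟩ : O) : Fin n)) h1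
    exact hg₀x h2
  have hcnt : Nontrivial (Subgroup.center φ.range) := hP.center_nontrivial
  obtain ⟨c, hc⟩ := exists_ne (1 : Subgroup.center φ.range)
  obtain ⟨k, hk⟩ := (IsPGroup.iff_orderOf.1 (hP.to_subgroup (Subgroup.center φ.range))) c
  have hk0 : k ≠ 0 := by
    rintro rfl
    rw [pow_zero, orderOf_eq_one_iff] at hk
    exact hc hk
  set c' := c ^ 3 ^ (k - 1) with hc'
  have hc'1 : c' ≠ 1 := by
    apply pow_ne_one_of_lt_orderOf (by positivity)
    rw [hk]; exact Nat.pow_lt_pow_right (by norm_num) (by omega)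
  have hc'3 : c' ^ 3 = 1 := by
    rw [hc', ← pow_mul, ← pow_succ, Nat.sub_add_cancel (Nat.one_le_iff_ne_zero.2 hk0), ← hk,
      pow_orderOf_eq_one]
  obtain ⟨z, hz⟩ : ∃ z : S, φ z = ((c' : φ.range) : Perm O) := (c' : φ.range).2
  have hz3 : φ z * φ z * φ z = 1 := by
    rw [hz]
    have := congrArg (fun t : Subgroup.center φ.range => ((t : φ.range) : Perm O)) hc'3
    simpa [pow_succ] using this
  have hzne : φ z ≠ 1 := by
    rw [hz]; intro h; apply hc'1; apply Subtype.ext; apply Subtype.ext; exact h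
  have hzc : ∀ g : S, φ g * φ z = φ z * φ g := by
    intro g
    have h1 := Subgroup.mem_center_iff.1 c'.2 ⟨φ g, ⟨g, rfl⟩⟩
    have h2 := congrArg Subtype.val h1
    rw [hz]; exact h2
  have comm : ∀ (g : S) (w : Fin n), w ∈ O →
      ((g : alternatingGroup (Fin n)) : Perm (Fin n))
        (((z : alternatingGroup (Fin n)) : Perm (Fin n)) w) =
      ((z : alternatingGroup (Fin n)) : Perm (Fin n))
        (((g : alternatingGroup (Fin n)) : Perm (Fin n)) w) := by
    intro g w hw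
    have := congrArg (fun p : Perm O => ((p ⟨w, hw⟩ : O) : Fin n)) (hzc g)
    simpa [Perm.mul_apply, hφ] using this
  refine ⟨z.1, z.2, ?_, ?_, ?_⟩
  · intro hzx
    apply hzne
    ext w
    obtain ⟨g, hg⟩ := w.2
    have hg' : ((g : alternatingGroup (Fin n)) : Perm (Fin n)) x = (w : Fin n) := hg
    rw [hφ, Perm.one_apply, ← hg', ← comm g x hxO, hzx]
  · intro w hw
    have := congrArg (fun p : Perm O => ((p ⟨w, hmemO w hw⟩ : O) : Fin n)) hz3
    simpa [Perm.mul_apply, hφ] using this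
  · intro g hg w hw
    exact comm ⟨g, hg⟩ w (hmemO w hw)

end Cfsg.Agent.Lib.Helper27.Pmin3
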