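import Cfsg.Agent.Lib.Helper38.Pmin3.Defs

/-!
# S2930 "Pmin3", package (PRIM) (helper27)
-/

set_option autoImplicit false

namespace Cfsg.Agent.Lib.Helper27.Pmin3

open Cfsg.Agent.Lib.Helper38.Pmin3 Equiv
open scoped Pointwise

theorem exists_ne2 {α : Type*} [Finite α] (C : Set α) (h : 3 ≤ C.ncard) (a b : α) :
    ∃ w ∈ C, w ≠ a ∧ w ≠ b := by
  classical
  by_contra hno
  push Not at hno
  have hsub : C ⊆ ({a, b} : Set α) := by
    intro w hw
    by_cases h1 : w = a
    · exact Or.inl h1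
    · exact Or.inr (hno w hw h1)
  have h1 := Set.ncard_le_ncard hsub (Set.toFinite _)
  have h2 : ({a, b} : Set α).ncard ≤ 2 := by
    have := Set.ncard_insert_le a ({b} : Set α)
    rw [Set.ncard_singleton] at this
    exact this
  omega

theorem exists_ne3 {α : Type*} [Finite α] (C : Set α) (h : 4 ≤ C.ncard) (a b c : α) :
    ∃ w ∈ C, w ≠ a ∧ w ≠ b ∧ w ≠ c := by
  classical
  by_contra hno
  push Not at hno
  have hsub : C ⊆ ({a, b, c} : Set α) := by
    intro w hw
    by_cases h1 : w = a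
    · exact Or.inl h1
    by_cases h2 : w = b
    · exact Or.inr (Or.inl h2)
    · exact Or.inr (Or.inr (hno w hw h1 h2))
  have h1 := Set.ncard_le_ncard hsub (Set.toFinite _)
  have h2 : ({a, b, c} : Set α).ncard ≤ 3 := by
    have h3 := Set.ncard_insert_le a ({b, c} : Set α)
    have h4 := Set.ncard_insert_le b ({c} : Set α)
    rw [Set.ncard_singleton] at h4
    omega
  omega

/-- the 3-cycle `swap a b * swap a c` sends `a ↦ c`. -/
theorem tcyc_apply_a {α : Type*} [DecidableEq α] (a b c : α) (hac : a ≠ c) (hbc : b ≠ c) :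
    (swap a b * swap a c) a = c := by
  rw [Perm.mul_apply, swap_apply_left, swap_apply_of_ne_of_ne hac.symm hbc.symm]

theorem tcyc_apply_other {α : Type*} [DecidableEq α] (a b c x : α) (hxa : x ≠ a) (hxb : x ≠ b)
    (hxc : x ≠ c) : (swap a b * swap a c) x = x := by
  rw [Perm.mul_apply, swap_apply_of_ne_of_ne hxa hxc, swap_apply_of_ne_of_ne hxa hxb]

theorem lemPrim : LemPrim := by
  intro n hn M ρ x₀ hρ htrans h3 hcls h4 hbig hbrk
  classical
  have : MulAction.IsPretransitive M (Fin n) := ⟨fun x y => by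
    obtain ⟨g, hg, hgx⟩ := htrans x y
    exact ⟨⟨g, hg⟩, hgx⟩⟩
  have h3' : ∀ a b c : Fin n, a ≠ b → a ≠ c → b ≠ c → ρ a b → ρ a c →
      ∃ g : M, ∀ x : Fin n, g • x = (swap a b * swap a c) x := by
    intro a b c hab hac hbc rab rac
    have hmem : swap a b * swap a c ∈ alternatingGroup (Fin n) :=
      (Equiv.Perm.isThreeCycle_swap_mul_swap_same hab hac hbc).mem_alternatingGroup
    exact ⟨⟨⟨swap a b * swap a c, hmem⟩, h3 a b c hab hac hbc rab rac _ rfl⟩, fun x => rfl⟩
  have key : ∀ B : Set (Fin n), MulAction.IsBlock M B → x₀ ∈ B → ¬ B.Subsingleton →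
      B = Set.univ := by
    intro B hB hx₀ hns
    have hK : ∀ (g : M) (a : Fin n), a ∈ B → g • a = a → ∀ w ∈ B, g • w ∈ B := by
      intro g a ha hga w hw
      have h1 : g • B = B := hB.smul_eq_of_mem ha (by rw [hga]; exact ha)
      rw [← h1]; exact Set.smul_mem_smul_set hw
    -- a class containing a point of B and missing another point of B lies in B
    have hcl : ∀ a y : Fin n, a ∈ B → y ∈ B → ¬ ρ a y → {w | ρ a w} ⊆ B := by
      intro a y ha hy hay w hw
      by_cases hwa : w = a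
      · rw [hwa]; exact ha
      obtain ⟨w', hw', hw'a, hw'w⟩ := exists_ne2 {w | ρ a w} (hcls a) a w
      obtain ⟨t, ht⟩ := h3' a w' w (Ne.symm hw'a) (Ne.symm hwa) hw'w hw' hw
      have hy1 : y ≠ a := fun h => hay (h ▸ hρ.refl a)
      have hy2 : y ≠ w := fun h => hay (h ▸ hw)
      have hy3 : y ≠ w' := fun h => hay (h ▸ hw')
      have hty : t • y = y := by
        rw [ht]; exact tcyc_apply_other a w' w y hy1 hy3 hy2
      have h5 := hK t y hy hty a ha
      rw [ht, tcyc_apply_a a w' w (Ne.symm hwa) hw'w] at h5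
      exact h5
    by_cases hcase : ∃ y ∈ B, ¬ ρ x₀ y
    · obtain ⟨y, hy, hxy⟩ := hcase
      have hsub1 : {w | ρ x₀ w} ⊆ B := hcl x₀ y hx₀ hy hxy
      have hsub2 : {w | ρ y w} ⊆ B := hcl y x₀ hy hx₀ (fun h => hxy (hρ.symm h))
      have hdisj : Disjoint {w | ρ x₀ w} {w | ρ y w} := by
        rw [Set.disjoint_left]; intro w h1 h2; exact hxy (hρ.trans h1 (hρ.symm h2))
      have hcard : Set.ncard {w | ρ x₀ w} + Set.ncard {w | ρ y w} ≤ B.ncard := by
        rw [← Set.ncard_union_eq hdisj (Set.toFinite _) (Set.toFinite _)]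
        exact Set.ncard_le_ncard (Set.union_subset hsub1 hsub2) (Set.toFinite B)
      apply hB.eq_univ_of_card_lt
      have := hbig y hxy
      simp only [Nat.card_eq_fintype_card, Fintype.card_fin]
      omega
    · push Not at hcase
      exfalso
      obtain ⟨y, hy, hyx⟩ : ∃ y ∈ B, y ≠ x₀ := by
        by_contra hno
        push Not at hno
        apply hns
        intro a ha b hb
        rw [hno a ha, hno b hb]
      have hsub : {w | ρ x₀ w} ⊆ B := by
        intro w hw
        by_cases hwx : w = x₀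
        · rw [hwx]; exact hx₀
        by_cases hwy : w = y
        · rw [hwy]; exact hy
        obtain ⟨w', hw', hw'x, hw'y, hw'w⟩ := exists_ne3 {w | ρ x₀ w} h4 x₀ y w
        have hρy := hcase y hy
        obtain ⟨t, ht⟩ := h3' y w' w (Ne.symm hw'y) (Ne.symm hwy) hw'w
          (hρ.trans (hρ.symm hρy) hw') (hρ.trans (hρ.symm hρy) hw)
        have htx : t • x₀ = x₀ := by
          rw [ht]; exact tcyc_apply_other y w' w x₀ (Ne.symm hyx) (Ne.symm hw'x) (Ne.symm hwx)
        have h5 := hK t x₀ hx₀ htx y hy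
        rw [ht, tcyc_apply_a y w' w (Ne.symm hwy) hw'w] at h5
        exact h5
      obtain ⟨h, hhM, u, hu, hhu, hhx⟩ := hbrk
      have hu' : u ∈ B := hsub hu
      have hhu' : (⟨h, hhM⟩ : M) • u ∈ B := hsub hhu
      have h1 : (⟨h, hhM⟩ : M) • B = B := hB.smul_eq_of_mem hu' hhu'
      have h2 : (⟨h, hhM⟩ : M) • x₀ ∈ B := by rw [← h1]; exact Set.smul_mem_smul_set hx₀
      exact hhx (hcase _ h2)
  have hprim : MulAction.IsPreprimitive M (Fin n) := by
    apply MulAction.IsPreprimitive.mk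
    intro B hB
    rcases Set.eq_empty_or_nonempty B with rfl | ⟨b, hb⟩
    · exact Or.inl Set.subsingleton_empty
    obtain ⟨g, hg, hgb⟩ := htrans b x₀
    have hx₀ : x₀ ∈ (⟨g, hg⟩ : M) • B := ⟨b, hb, hgb⟩
    have hT : MulAction.IsTrivialBlock ((⟨g, hg⟩ : M) • B) := by
      by_cases hs : ((⟨g, hg⟩ : M) • B).Subsingleton
      · exact Or.inl hs
      · exact Or.inr (key _ (hB.translate _) hx₀ hs)
    exact (MulAction.IsTrivialBlock.smul_iff _).1 hT
  -- a 3-cycle in M
  obtain ⟨w, hw, hwx, -⟩ := exists_ne2 {w | ρ x₀ w} (hcls x₀) x₀ x₀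
  obtain ⟨w', hw', hw'x, hw'w⟩ := exists_ne2 {w | ρ x₀ w} (hcls x₀) x₀ w
  have hg3 : Equiv.Perm.IsThreeCycle (swap x₀ w * swap x₀ w') :=
    Equiv.Perm.isThreeCycle_swap_mul_swap_same (Ne.symm hwx) (Ne.symm hw'x) (Ne.symm hw'w)
  have hgM : (⟨swap x₀ w * swap x₀ w', hg3.mem_alternatingGroup⟩ : alternatingGroup (Fin n)) ∈ M :=
    h3 x₀ w w' (Ne.symm hwx) (Ne.symm hw'x) (Ne.symm hw'w) hw hw' _ rfl
  rw [eq_top_iff, ← Subgroup.map_subtype_le_map_subtype, ← MonoidHom.range_eq_map,
    Subgroup.range_subtype]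
  apply Equiv.Perm.alternatingGroup_le_of_isPreprimitive_of_isThreeCycle_mem _ hg3
  · exact ⟨⟨swap x₀ w * swap x₀ w', hg3.mem_alternatingGroup⟩, hgM, rfl⟩
  · let φ := (alternatingGroup (Fin n)).subtype.subgroupMap M
    let f : Fin n →ₑ[φ] Fin n := {
      toFun := id
      map_smul' _ _ := rfl }
    rwa [← MulAction.isPreprimitive_congr (f := f)
      ((alternatingGroup (Fin n)).subtype.subgroupMap_surjective M) Function.bijective_id]

end Cfsg.Agent.Lib.Helper27.Pmin3
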